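import Cfsg.Agent.H883.BR.Defs

/-!
# HUB BR (S5715, S5716), D3 and D4: the field of the traces, full root groups
-/

set_option autoImplicit false
set_option linter.unusedVariables false

namespace Cfsg.Agent.H601.BR

open Cfsg.Agent.H883.BR

universe u v w

/-! ### The twist of a module by an automorphism of the field -/

section Tw

variable {K : Type u} [Field K]

/-- `W` with `K` acting through `θ⁻¹` -/
@[ext] structure Tw (θ : K ≃+* K) (W : Type v) : Type v where
  val : W

variable (θ : K ≃+* K) {W : Type v} [AddCommGroup W]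

/-- the identity -/
def eqv : Tw θ W ≃ W := ⟨Tw.val, Tw.mk, fun _ => rfl, fun _ => rfl⟩

instance : AddCommGroup (Tw θ W) := (eqv θ).addCommGroup

theorem val_add (x y : Tw θ W) : (x + y).val = x.val + y.val := rfl
theorem val_zero : (0 : Tw θ W).val = 0 := rfl

variable [Module K W]

instance : Module K (Tw θ W) where
  smul c x := ⟨θ.symm c • x.val⟩
  one_smul x := Tw.ext (by show θ.symm 1 • x.val = _; rw [map_one, one_smul])
  mul_smul c d x := Tw.ext (by
    show θ.symm (c * d) • x.val = θ.symm c • θ.symm d • x.val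
    rw [map_mul, mul_smul])
  smul_zero c := Tw.ext (by show θ.symm c • (0 : W) = 0; rw [smul_zero])
  smul_add c x y := Tw.ext (by
    show θ.symm c • (x.val + y.val) = θ.symm c • x.val + θ.symm c • y.val
    rw [smul_add])
  add_smul c d x := Tw.ext (by
    show θ.symm (c + d) • x.val = θ.symm c • x.val + θ.symm d • x.val
    rw [map_add, add_smul])
  zero_smul x := Tw.ext (by show θ.symm 0 • x.val = 0; rw [map_zero, zero_smul])

theorem val_smul (c : K) (x : Tw θ W) : (c • x).val = θ.symm c • x.val := rfl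

/-- the same map on the twisted module -/
def twE (T : Module.End K W) : Module.End K (Tw θ W) where
  toFun v := ⟨T v.val⟩
  map_add' x y := Tw.ext (by show T (x.val + y.val) = T x.val + T y.val; rw [map_add])
  map_smul' c x := Tw.ext (by
    show T (θ.symm c • x.val) = θ.symm c • T x.val
    rw [map_smul])

theorem val_twE (T : Module.End K W) (v : Tw θ W) : (twE θ T v).val = T v.val := rfl

/-- the twisted representation -/
def twR {G : Type*} [Group G] (σ : G →* Module.End K W) : G →* Module.End K (Tw θ W) where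
  toFun g := twE θ (σ g)
  map_one' := by
    refine LinearMap.ext fun v => Tw.ext ?_
    rw [val_twE, map_one]; rfl
  map_mul' g h := by
    refine LinearMap.ext fun v => Tw.ext ?_
    rw [val_twE, map_mul]; rfl

theorem val_twR {G : Type*} [Group G] (σ : G →* Module.End K W) (g : G) (v : Tw θ W) :
    (twR θ σ g v).val = σ g v.val := rfl

/-- the twisted coordinates -/
noncomputable def twC {ι : Type*} [Finite ι] (b : Module.Basis ι K W) : Tw θ W ≃ₗ[K] (ι → K) where
  toFun v i := θ (b.equivFun v.val i)
  map_add' x y := by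
    funext i
    rw [val_add, map_add, Pi.add_apply, map_add]
    rfl
  map_smul' c x := by
    funext i
    rw [val_smul, map_smul, Pi.smul_apply, smul_eq_mul, map_mul, RingEquiv.apply_symm_apply]
    rfl
  invFun f := ⟨b.equivFun.symm fun i => θ.symm (f i)⟩
  left_inv v := Tw.ext (by
    simp only [RingEquiv.symm_apply_apply]
    exact b.equivFun.symm_apply_apply v.val)
  right_inv f := by
    funext i
    simp only [LinearEquiv.apply_symm_apply, RingEquiv.apply_symm_apply]

/-- the twisted basis -/
noncomputable def twB {ι : Type*} [Finite ι] (b : Module.Basis ι K W) : Module.Basis ι K (Tw θ W) :=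
  Module.Basis.ofEquivFun (twC θ b)

instance [FiniteDimensional K W] : FiniteDimensional K (Tw θ W) :=
  Module.Finite.of_basis (twB θ (Module.finBasis K W))

theorem twB_repr {ι : Type*} [Finite ι] (b : Module.Basis ι K W) (v : Tw θ W) (i : ι) :
    (twB θ b).repr v i = θ (b.repr v.val i) := by
  have : (twB θ b).equivFun v i = θ (b.equivFun v.val i) := by
    rw [twB, Module.Basis.equivFun_ofEquivFun]
    rfl
  simpa using this

theorem twB_apply {ι : Type*} [Finite ι] (b : Module.Basis ι K W) (i : ι) : (twB θ b i).val = b i := by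
  classical
  apply b.repr.injective
  ext j
  apply θ.injective
  rw [← twB_repr, Module.Basis.repr_self, Module.Basis.repr_self, Finsupp.single_apply]
  split_ifs
  · rw [map_one]
  · rw [map_zero]

theorem toMatrix_twE {ι : Type*} [Fintype ι] [DecidableEq ι] (b : Module.Basis ι K W) (T : Module.End K W) :
    LinearMap.toMatrix (twB θ b) (twB θ b) (twE θ T) = (LinearMap.toMatrix b b T).map θ := by
  ext i j
  rw [LinearMap.toMatrix_apply, twB_repr, val_twE, twB_apply, Matrix.map_apply, LinearMap.toMatrix_apply]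

theorem trace_twE [FiniteDimensional K W] (T : Module.End K W) :
    LinearMap.trace K (Tw θ W) (twE θ T) = θ (LinearMap.trace K W T) := by
  rw [LinearMap.trace_eq_matrix_trace K (twB θ (Module.finBasis K W)),
    LinearMap.trace_eq_matrix_trace K (Module.finBasis K W), toMatrix_twE]
  exact (AddMonoidHom.map_trace (θ : K →+ K) _).symm

theorem det_twE [FiniteDimensional K W] (T : Module.End K W) :
    LinearMap.det (twE θ T) = θ (LinearMap.det T) := by
  rw [← LinearMap.det_toMatrix (twB θ (Module.finBasis K W)), ← LinearMap.det_toMatrix (Module.finBasis K W),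
    toMatrix_twE]
  exact (RingHom.map_det (θ : K →+* K) _).symm

theorem finrank_tw [FiniteDimensional K W] : Module.finrank K (Tw θ W) = Module.finrank K W := by
  rw [Module.finrank_eq_card_basis (twB θ (Module.finBasis K W)), Fintype.card_fin]

end Tw

/-! ### The Frobenius automorphism of a finite subfield -/

section Frob

/-- a finite subfield is the fixed field of an automorphism -/
theorem exists_frob (p : ℕ) [Fact p.Prime] {K : Type u} [Field K] [CharP K p] [IsAlgClosed K] (F₁ : Subfield K)
    [Finite F₁] : ∃ θ : K ≃+* K, ∀ x : K, θ x = x ↔ x ∈ F₁ := by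
  classical
  let _ := Fintype.ofFinite F₁
  have hc : CharP F₁ p := (F₁.subtype).charP F₁.subtype.injective p
  obtain ⟨n, hp, hn⟩ := FiniteField.card F₁ p
  refine ⟨iterateFrobeniusEquiv K p n, fun x => ?_⟩
  rw [iterateFrobeniusEquiv_apply, iterateFrobenius_def, ← hn]
  have hmem : ∀ y ∈ F₁, y ^ Fintype.card F₁ = y := by
    intro y hy
    exact congrArg Subtype.val (FiniteField.pow_card (⟨y, hy⟩ : F₁))
  refine ⟨fun hx => ?_, hmem x⟩
  by_contra hxF
  have h1 : 1 < Fintype.card F₁ := Fintype.one_lt_card
  have h0 := FiniteField.X_pow_card_sub_X_ne_zero K h1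
  have hdeg := FiniteField.X_pow_card_sub_X_natDegree_eq K h1
  let S : Finset K := insert x ((Finset.univ : Finset F₁).map ⟨Subtype.val, Subtype.val_injective⟩)
  have hS : S.val ⊆ (Polynomial.X ^ Fintype.card F₁ - Polynomial.X : Polynomial K).roots := by
    intro y hy
    rw [Polynomial.mem_roots h0, Polynomial.IsRoot.def, Polynomial.eval_sub, Polynomial.eval_pow, Polynomial.eval_X,
      sub_eq_zero]
    rcases Finset.mem_insert.1 (show y ∈ S from hy) with rfl | hy
    · exact hx
    · rw [Finset.mem_map] at hy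
      obtain ⟨z, -, rfl⟩ := hy
      exact hmem _ z.2
  have h2 := Polynomial.card_le_degree_of_subset_roots hS
  rw [hdeg, Finset.card_insert_of_notMem, Finset.card_map, Finset.card_univ] at h2
  · omega
  · rw [Finset.mem_map]
    rintro ⟨z, -, hz⟩
    exact hxF (hz ▸ z.2)

end Frob

/-! ### D3 -/

section D3

/-- Schur's lemma for `σ` restricted to a subgroup -/
theorem schur {K : Type u} [Field K] [IsAlgClosed K] {G : Type w} [Group G] {W : Type v} [AddCommGroup W] [Module K W]
    [FiniteDimensional K W] {σ : G →* Module.End K W} {M : Subgroup G} (h : Irr σ M) {X : Module.End K W}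
    (hX : ∀ m ∈ M, X * σ m = σ m * X) : ∃ c : K, X = c • 1 := by
  have := h.1
  obtain ⟨c, hc⟩ := Module.End.exists_eigenvalue X
  refine ⟨c, ?_⟩
  have hinv : Inv σ M (Module.End.eigenspace X c) := by
    intro m hm v hv
    rw [Module.End.mem_eigenspace_iff] at hv ⊢
    have := congrArg (fun T : Module.End K W => T v) (hX m hm)
    simp only [Module.End.mul_apply] at this
    rw [this, hv, map_smul]
  rcases h.2 _ hinv with h1 | h1
  · exact absurd h1 hc
  · refine LinearMap.ext fun v => ?_
    have : v ∈ Module.End.eigenspace X c := by rw [h1]; trivial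
    rw [Module.End.mem_eigenspace_iff] at this
    rw [this]
    rfl

theorem irr_comp {K : Type u} [Field K] {G : Type w} [Group G] {W : Type v} [AddCommGroup W] [Module K W]
    {σ : G →* Module.End K W} {M : Subgroup G} (h : Irr σ M) : Irr (σ.comp M.subtype) ⊤ :=
  ⟨h.1, fun U hU => h.2 U fun m hm v hv => hU ⟨m, hm⟩ trivial v hv⟩

theorem irr_twR {K : Type u} [Field K] (θ : K ≃+* K) {G : Type w} [Group G] {W : Type v} [AddCommGroup W] [Module K W]
    {σ : G →* Module.End K W} {M : Subgroup G} (h : Irr σ M) : Irr (twR θ σ) M := by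
  have hnt := h.1
  refine ⟨(eqv θ (W := W)).nontrivial, fun U hU => ?_⟩
  let U' : Submodule K W :=
    { carrier := {v | (⟨v⟩ : Tw θ W) ∈ U}
      zero_mem' := U.zero_mem
      add_mem' := fun hx hy => U.add_mem hx hy
      smul_mem' := fun c x hx => by
        have := U.smul_mem (θ c) hx
        have e : θ c • (⟨x⟩ : Tw θ W) = ⟨c • x⟩ := Tw.ext (by rw [val_smul, RingEquiv.symm_apply_apply])
        rwa [e] at this }
  rcases h.2 U' (fun m hm v hv => hU m hm ⟨v⟩ hv) with h1 | h1
  · left
    rw [eq_bot_iff]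
    intro x hx
    have : x.val ∈ U' := hx
    rw [h1, Submodule.mem_bot] at this
    rw [Submodule.mem_bot]
    exact Tw.ext this
  · right
    rw [eq_top_iff]
    intro x _
    have : x.val ∈ U' := by rw [h1]; trivial
    exact this

/-- **D3**: the field of the traces -/
theorem fld {p : ℕ} [Fact p.Prime] {K : Type u} [Field K] [CharP K p] [IsAlgClosed K] {G : Type w} [Group G]
    [Finite G] {W : Type v} [AddCommGroup W] [Module K W] [FiniteDimensional K W] (σ : G →* Module.End K W)
    {H M : Subgroup G} (hMH : M ≤ H) (hn : ∀ h ∈ H, ∀ m ∈ M, h * m * h⁻¹ ∈ M) {U : Subgroup M}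
    (hc : CRG.{u, v, w} p U) (hirr : Irr σ M) (hz : ∀ z : M, z ∈ Subgroup.center M → σ z = 1) {w : W} (hw : w ≠ 0)
    (hu : ∀ u ∈ U, σ (u : G) w = w) (F₁ : Subfield K) [Finite F₁]
    (hF : ∀ (b : M) (c : K), (∀ u ∈ U, b * u * b⁻¹ ∈ U) → σ (b : G) w = c • w → c ∈ F₁)
    (hdet : ∀ h ∈ H, LinearMap.det (σ h) = 1) :
    ∀ h ∈ H, (LinearMap.trace K W (σ h)) ^ Module.finrank K W ∈ F₁ := by
  obtain ⟨θ, hθ⟩ := exists_frob p F₁
  have hθ' : ∀ x ∈ F₁, θ.symm x = x := fun x hx => by
    rw [RingEquiv.symm_apply_eq]; exact ((hθ x).2 hx).symm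
  have hw' : (⟨w⟩ : Tw θ W) ≠ 0 := fun h => hw (congrArg Tw.val h)
  obtain ⟨e, he⟩ := hc.iso K W (Tw θ W) (σ.comp M.subtype) ((twR θ σ).comp M.subtype) (irr_comp hirr)
    (irr_comp (irr_twR θ hirr)) (fun z hzz => hz z hzz) (fun z hzz => by
      refine LinearMap.ext fun v => Tw.ext ?_
      show σ z v.val = v.val
      rw [hz z hzz]; rfl) w ⟨w⟩ hw hw' hu (fun u hu' => Tw.ext (hu u hu')) (fun b c hb => by
      constructor
      · intro h
        refine Tw.ext ?_
        show σ b w = θ.symm c • w
        rw [hθ' c (hF b c hb h)]; exact h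
      · intro h
        have h1 : σ b w = θ.symm c • w := congrArg Tw.val h
        have h2 : θ.symm c ∈ F₁ := hF b _ hb h1
        have h3 : c = θ.symm c := by
          have := (hθ _).2 h2
          rw [RingEquiv.apply_symm_apply] at this
          exact this
        show σ b w = c • w
        rw [h3]; exact h1) (fun g => by
      constructor
      · rintro ⟨c, hc⟩
        refine ⟨θ c, Tw.ext ?_⟩
        show σ g w = θ.symm (θ c) • w
        rw [RingEquiv.symm_apply_apply]; exact hc
      · rintro ⟨c, hc⟩
        exact ⟨θ.symm c, congrArg Tw.val hc⟩)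
  have he' : ∀ m ∈ M, ∀ v : W, e (σ m v) = twR θ σ m (e v) := fun m hm v => he ⟨m, hm⟩ v
  intro h hh
  -- the intertwiner
  obtain ⟨c, hc⟩ := schur hirr (X := (e.symm : Tw θ W →ₗ[K] W) ∘ₗ (twR θ σ h⁻¹) ∘ₗ (e : W →ₗ[K] Tw θ W) ∘ₗ σ h)
    (fun m hm => by
      refine LinearMap.ext fun v => ?_
      show e.symm (twR θ σ h⁻¹ (e (σ h (σ m v)))) = σ m (e.symm (twR θ σ h⁻¹ (e (σ h v))))
      have h1 : σ h (σ m v) = σ (h * m * h⁻¹) (σ h v) := by
        rw [← Module.End.mul_apply, ← Module.End.mul_apply, ← map_mul, ← map_mul]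
        congr 2; group
      have h2 : ∀ x : Tw θ W, twR θ σ h⁻¹ (twR θ σ (h * m * h⁻¹) x) = twR θ σ m (twR θ σ h⁻¹ x) := fun x => by
        rw [← Module.End.mul_apply, ← Module.End.mul_apply, ← map_mul, ← map_mul]
        congr 2; group
      rw [h1, he' _ (hn h hh m hm), h2, LinearEquiv.symm_apply_eq, he' m hm, LinearEquiv.apply_symm_apply])
  have key : ∀ v : W, e (σ h v) = c • twR θ σ h (e v) := by
    intro v
    have h1 : e.symm (twR θ σ h⁻¹ (e (σ h v))) = c • v := congrArg (fun T : Module.End K W => T v) hc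
    rw [LinearEquiv.symm_apply_eq, map_smul] at h1
    have h2 := congrArg (twR θ σ h) h1
    rw [← Module.End.mul_apply, ← map_mul, mul_inv_cancel, map_one, map_smul] at h2
    exact h2
  have hconj : (e : W →ₗ[K] Tw θ W) ∘ₗ σ h ∘ₗ (e.symm : Tw θ W →ₗ[K] W) = c • twE θ (σ h) := by
    refine LinearMap.ext fun v => ?_
    show e (σ h (e.symm v)) = c • twR θ σ h v
    rw [key, LinearEquiv.apply_symm_apply]
  have htr : LinearMap.trace K W (σ h) = c * θ (LinearMap.trace K W (σ h)) := by
    have h1 := LinearMap.trace_conj' (σ h) e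
    rw [LinearEquiv.conj_apply, LinearMap.comp_assoc, hconj, map_smul, trace_twE, smul_eq_mul] at h1
    exact h1.symm
  have hdt : (1 : K) = c ^ Module.finrank K W := by
    have h1 := LinearMap.det_conj (σ h) e
    rw [hconj, LinearMap.det_smul, det_twE, hdet h hh, map_one, mul_one, finrank_tw] at h1
    exact h1.symm
  rw [← hθ, map_pow]
  have h5 := congrArg (fun x => x ^ Module.finrank K W) htr
  simp only [mul_pow] at h5
  rw [← hdt, one_mul] at h5
  exact h5.symm

end D3

/-! ### D4 -/

section D4

/-- a finite subfield generated by a set is generated by it as a ring -/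
theorem closure_le_subring {K : Type u} [Field K] {C : Set K} [Finite (Subfield.closure C)] {x : K}
    (hx : x ∈ Subfield.closure C) : x ∈ Subring.closure C := by
  classical
  let _ := Fintype.ofFinite (Subfield.closure C)
  have hle : Subring.closure C ≤ (Subfield.closure C).toSubring := Subring.closure_le.2 Subfield.subset_closure
  induction hx using Subfield.closure_induction with
  | mem x hx => exact Subring.subset_closure hx
  | one => exact one_mem _
  | add x y _ _ hx hy => exact add_mem hx hy
  | neg x _ hx => exact neg_mem hx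
  | inv x hx' hx =>
    by_cases h0 : x = 0
    · rw [h0, inv_zero]; exact zero_mem _
    have h1 : 1 < Fintype.card (Subfield.closure C) := Fintype.one_lt_card
    have h2 : x ^ (Fintype.card (Subfield.closure C) - 1) = 1 := by
      have := FiniteField.pow_card_sub_one_eq_one (⟨x, hx'⟩ : Subfield.closure C)
        (fun h => h0 (congrArg Subtype.val h))
      exact congrArg Subtype.val this
    have h3 : x⁻¹ = x ^ (Fintype.card (Subfield.closure C) - 2) := by
      apply inv_eq_of_mul_eq_one_right
      rw [← pow_succ', show Fintype.card (Subfield.closure C) - 2 + 1 = Fintype.card (Subfield.closure C) - 1 by omega,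
        h2]
    rw [h3]
    exact pow_mem hx _
  | mul x y _ _ hx hy => exact mul_mem hx hy

/-- **D4**: the full root group -/
theorem root_full {p : ℕ} [Fact p.Prime] {K : Type u} [Field K] [CharP K p] [IsAlgClosed K]
    (lf : ∀ S : Set K, S.Finite → ∃ E : Subfield K, Finite E ∧ S ⊆ E) {F : Subfield K} [Finite F] {G : Type w}
    [Group G] [Finite G] {V : Type v} [AddCommGroup V] [Module K V] (ρ : G →* Module.End K V)
    {W : Type v} [AddCommGroup W] [Module K W] [FiniteDimensional K W] (σ : G →* Module.End K W)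
    {H M : Subgroup G} (hMH : M ≤ H) (hn : ∀ h ∈ H, ∀ m ∈ M, h * m * h⁻¹ ∈ M) {U : Subgroup M}
    (hc : CRG.{u, v, w} p U) (hirr : Irr σ M) (hz : ∀ z : M, z ∈ Subgroup.center M → σ z = 1) {w : W} (hw : w ≠ 0)
    (hu : ∀ u ∈ U, σ (u : G) w = w) (hdet : ∀ h ∈ H, LinearMap.det (σ h) = 1) {a : Module.End K V} (ha : a * a = 0)
    (ha1 : ∃ z ∈ M, ρ z = 1 + a)
    (hb : ∀ (b : M) (c : K), (∀ u ∈ U, b * u * b⁻¹ ∈ U) → σ (b : G) w = c • w → ad ρ (b : G) a = c • a)
    {y : G} (hy : y ∈ H) (htr : TrGen F σ y) (hyF : (LinearMap.trace K W (σ y)) ^ Module.finrank K W ∈ F) :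
    ∀ t ∈ F, ∃ m ∈ M, ρ m = 1 + t • a := by
  classical
  -- the eigenvalues of `N(U)` on `w`
  let C : Set K := {c | ∃ b : M, (∀ u ∈ U, b * u * b⁻¹ ∈ U) ∧ σ (b : G) w = c • w}
  have hCfin : C.Finite := by
    have h1 : C ⊆ ⋃ b : M, {c | σ (b : G) w = c • w} := by
      rintro c ⟨b, -, hb⟩
      exact Set.mem_iUnion.2 ⟨b, hb⟩
    refine (Set.finite_iUnion fun b => ?_).subset h1
    apply Set.Subsingleton.finite
    intro c hc c' hc'
    have : (c : K) • w = c' • w := Eq.trans (Eq.symm hc) hc'
    exact smul_left_injective K hw this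
  obtain ⟨E, hE, hCE⟩ := lf C hCfin
  have hle : Subfield.closure C ≤ E := Subfield.closure_le.2 hCE
  have hfin : Finite (Subfield.closure C) := Finite.of_injective (Subfield.inclusion hle) (RingHom.injective _)
  have h1 := fld σ hMH hn hc hirr hz hw hu (Subfield.closure C)
    (fun b c hbu hbw => Subfield.subset_closure ⟨b, hbu, hbw⟩) hdet y hy
  have hF : F ≤ Subfield.closure C := by
    by_contra hcon
    refine htr (F ⊓ Subfield.closure C) (lt_of_le_of_ne inf_le_left fun h => hcon ?_) ⟨hyF, h1⟩
    rw [← h]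
    exact inf_le_right
  -- the coefficients
  have key : ∀ x ∈ Subring.closure C, ∀ f : K, (∃ m ∈ M, ρ m = 1 + f • a) → ∃ m ∈ M, ρ m = 1 + (x * f) • a := by
    intro x hx
    induction hx using Subring.closure_induction with
    | mem x hx =>
      rintro f ⟨m, hm, hmf⟩
      obtain ⟨b, hbu, hbw⟩ := hx
      refine ⟨b * m * (b : G)⁻¹, M.mul_mem (M.mul_mem b.2 hm) (M.inv_mem b.2), ?_⟩
      have h2 := hb b x hbu hbw
      rw [ad_apply] at h2
      rw [map_mul, map_mul, hmf, mul_add, add_mul, mul_one, ← map_mul, mul_inv_cancel, map_one, mul_smul_comm,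
        smul_mul_assoc, h2, smul_smul, mul_comm f x]
    | zero =>
      rintro f -
      exact ⟨1, M.one_mem, by rw [map_one, zero_mul, zero_smul, add_zero]⟩
    | one =>
      rintro f hf
      rw [one_mul]; exact hf
    | add x y _ _ hx hy =>
      rintro f hf
      obtain ⟨m, hm, hmf⟩ := hx f hf
      obtain ⟨m', hm', hmf'⟩ := hy f hf
      refine ⟨m * m', M.mul_mem hm hm', ?_⟩
      rw [map_mul, hmf, hmf', mul_add, mul_one, add_mul, one_mul, smul_mul_smul_comm, ha, smul_zero, add_zero, add_assoc,
        ← add_smul, ← add_mul]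
    | neg x _ hx =>
      rintro f hf
      obtain ⟨m, hm, hmf⟩ := hx f hf
      refine ⟨m⁻¹, M.inv_mem hm, ?_⟩
      have h2 : ρ m * (1 + (-x * f) • a) = 1 := by
        rw [hmf, mul_add, mul_one, add_mul, one_mul, smul_mul_smul_comm, ha, smul_zero, add_zero, add_assoc,
          ← add_smul, ← add_mul, add_neg_cancel, zero_mul, zero_smul, add_zero]
      have h3 : ρ m⁻¹ * ρ m = 1 := by rw [← map_mul, inv_mul_cancel, map_one]
      calc ρ m⁻¹ = ρ m⁻¹ * (ρ m * (1 + (-x * f) • a)) := by rw [h2, mul_one]
        _ = 1 + (-x * f) • a := by rw [← mul_assoc, h3, one_mul]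
    | mul x y _ _ hx hy =>
      rintro f hf
      rw [mul_assoc]
      exact hx _ (hy f hf)
  obtain ⟨z, hzM, hza⟩ := ha1
  intro t ht
  have h4 := key t (closure_le_subring (hF ht)) 1 ⟨z, hzM, by rw [one_smul]; exact hza⟩
  rwa [mul_one] at h4

end D4

end Cfsg.Agent.H601.BR
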