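import Cfsg.Agent.H94.BR.SpDefs
import Cfsg.Agent.H886.BR.Cls
import Cfsg.Agent.H178.BR.TrF

/-!
# HUB BR, family `Sp_{2m}(2^f)`: T4, the module `W`

Hypotheses on the module structure of `End V` (T1) are explicit arguments.
-/

set_option autoImplicit false

namespace Cfsg.Agent.H601.BR

open Cfsg.Agent.H883.BR Cfsg.Agent.H94.BR

variable {m q : ℕ} {K : Type} [Field K] {F : Subfield K} {V : Type} [AddCommGroup V] [Module K V]
  {B : LinearMap.BilinForm K V} {G : Type} [Group G] {ρ : G →* Module.End K V}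
  {b : Module.Basis (Fin m ⊕ Fin m) K V}

/-! ### elementary facts -/

theorem sp_two (D : SpD m q F B ρ b) : (2 : K) = 0 := by
  have := D.char
  exact CharTwo.two_eq_zero

theorem sp_dbl (D : SpD m q F B ρ b) {M : Type*} [AddCommGroup M] [Module K M] (x : M) : x + x = 0 := by
  rw [← two_smul K x, sp_two D, zero_smul]

theorem sp_swap (D : SpD m q F B ρ b) (x y : V) : B x y = B y x := by
  have h2 := sp_two D
  have h1 := D.alt (x + y)
  simp only [map_add, LinearMap.add_apply, D.alt, zero_add, add_zero] at h1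
  linear_combination h1 - (B y x) * h2

theorem sp_repr_inl (D : SpD m q F B ρ b) (v : V) (j : Fin m) : b.repr v (Sum.inl j) = B v (b (Sum.inr j)) := by
  conv_rhs => rw [← b.sum_repr v]
  rw [Fintype.sum_sum_type, map_add, map_sum, map_sum, LinearMap.add_apply, LinearMap.sum_apply, LinearMap.sum_apply]
  simp [D.lr, D.rr]

theorem sp_repr_inr (D : SpD m q F B ρ b) (v : V) (j : Fin m) : b.repr v (Sum.inr j) = B v (b (Sum.inl j)) := by
  have h : ∀ i, B (b (Sum.inr i)) (b (Sum.inl j)) = if j = i then 1 else 0 := fun i => by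
    rw [sp_swap D, D.lr]
  conv_rhs => rw [← b.sum_repr v]
  rw [Fintype.sum_sum_type, map_add, map_sum, map_sum, LinearMap.add_apply, LinearMap.sum_apply, LinearMap.sum_apply]
  simp [h, D.ll]

/-- the form is nondegenerate -/
theorem sp_nd (D : SpD m q F B ρ b) {v : V} (h : ∀ x, B v x = 0) : v = 0 := by
  refine b.ext_elem fun i => ?_
  rw [map_zero, Finsupp.zero_apply]
  rcases i with i | i
  · rw [sp_repr_inl D, h]
  · rw [sp_repr_inr D, h]

/-- the form in coordinates -/
theorem sp_form (D : SpD m q F B ρ b) (x y : V) : B x y =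
    ∑ i, (b.repr x (Sum.inl i) * b.repr y (Sum.inr i) + b.repr x (Sum.inr i) * b.repr y (Sum.inl i)) := by
  conv_lhs => rw [← b.sum_repr x]
  rw [Fintype.sum_sum_type, map_add, map_sum, map_sum, LinearMap.add_apply, LinearMap.sum_apply, LinearMap.sum_apply,
    Finset.sum_add_distrib]
  congr 1
  · refine Finset.sum_congr rfl fun i _ => ?_
    rw [map_smul, LinearMap.smul_apply, sp_swap D, ← sp_repr_inr D, smul_eq_mul]
  · refine Finset.sum_congr rfl fun i _ => ?_
    rw [map_smul, LinearMap.smul_apply, sp_swap D, ← sp_repr_inl D, smul_eq_mul]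

theorem sp_rho_inv (g : G) (x : V) : ρ g (ρ g⁻¹ x) = x := by
  rw [← Module.End.mul_apply, ← map_mul, mul_inv_cancel, map_one, Module.End.one_apply]

theorem sp_inv_rho (g : G) (x : V) : ρ g⁻¹ (ρ g x) = x := by
  rw [← Module.End.mul_apply, ← map_mul, inv_mul_cancel, map_one, Module.End.one_apply]

theorem sp_adj (D : SpD m q F B ρ b) (g : G) (x y : V) : B x (ρ g⁻¹ y) = B (ρ g x) y := by
  rw [← D.iso g, sp_rho_inv]

theorem ad_apply_apply (g : G) (X : Module.End K V) (x : V) : ad ρ g X x = ρ g (X (ρ g⁻¹ x)) := rfl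

theorem ad_sq (D : SpD m q F B ρ b) (g : G) (v : V) : ad ρ g (sq B v) = sq B (ρ g v) := by
  refine LinearMap.ext fun x => ?_
  rw [ad_apply_apply, sq_apply, sq_apply, map_smul, sp_adj D]

theorem ad_wd (D : SpD m q F B ρ b) (g : G) (v w : V) : ad ρ g (wd B v w) = wd B (ρ g v) (ρ g w) := by
  refine LinearMap.ext fun x => ?_
  rw [ad_apply_apply, wd_apply, wd_apply, map_add, map_smul, map_smul, sp_adj D, sp_adj D]

theorem wd_mem_Lam (D : SpD m q F B ρ b) (v w : V) : wd B v w ∈ Lam B := by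
  refine ⟨fun x y => ?_, fun x => ?_⟩
  · rw [wd_apply, wd_apply, map_add, LinearMap.add_apply, map_smul, map_smul, LinearMap.smul_apply,
      LinearMap.smul_apply, map_add, map_smul, map_smul, sp_swap D x v, sp_swap D x w]
    simp only [smul_eq_mul]
    ring
  · rw [wd_apply, map_add, LinearMap.add_apply, map_smul, map_smul, LinearMap.smul_apply,
      LinearMap.smul_apply]
    simp only [smul_eq_mul]
    linear_combination (B w x * B v x) * sp_two D

theorem lam0_le (D : SpD m q F B ρ b) : Lam0 B ≤ Lam B := by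
  refine Submodule.span_le.2 ?_
  rintro X ⟨v, w, -, rfl⟩
  exact wd_mem_Lam D v w

theorem wd_mem_lam0 {v w : V} (h : B v w = 0) : wd B v w ∈ Lam0 B := Submodule.subset_span ⟨v, w, h, rfl⟩

theorem ad_mem_lam0 (D : SpD m q F B ρ b) (g : G) {X : Module.End K V} (hX : X ∈ Lam0 B) : ad ρ g X ∈ Lam0 B := by
  have h : Lam0 B ≤ (Lam0 B).comap (ad ρ g) := by
    refine Submodule.span_le.2 ?_
    rintro X ⟨v, w, h, rfl⟩
    change ad ρ g (wd B v w) ∈ Lam0 B
    rw [ad_wd D]
    exact wd_mem_lam0 (by rw [D.iso, h])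
  exact h hX

/-! ### the module -/

theorem exists_W (D : SpD m q F B ρ b) : ∃ (W : Type) (_ : AddCommGroup W) (_ : Module K W)
    (σ : G →* Module.End K W) (π : Lam0 B →ₗ[K] W), WD B ρ σ π := by
  let N : Submodule K (Lam0 B) := (Submodule.span K {(1 : Module.End K V)}).comap (Lam0 B).subtype
  have hN : ∀ X : Lam0 B, X ∈ N ↔ ∃ c : K, (X : Module.End K V) = c • 1 := fun X => by
    change (X : Module.End K V) ∈ Submodule.span K {(1 : Module.End K V)} ↔ _
    rw [Submodule.mem_span_singleton]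
    exact ⟨fun ⟨c, h⟩ => ⟨c, h.symm⟩, fun ⟨c, h⟩ => ⟨c, h.symm⟩⟩
  let A : G → Lam0 B →ₗ[K] Lam0 B := fun g => (ad ρ g).restrict fun X hX => ad_mem_lam0 D g hX
  have hA : ∀ g (X : Lam0 B), ((A g X : Lam0 B) : Module.End K V) = ad ρ g X := fun g X => rfl
  have hAN : ∀ g, N ≤ N.comap (A g) := by
    intro g X hX
    obtain ⟨c, hc⟩ := (hN X).1 hX
    refine (hN _).2 ⟨c, ?_⟩
    rw [hA, hc, ad_apply, mul_smul_comm, smul_mul_assoc, mul_one, ← map_mul, mul_inv_cancel, map_one]
  let σ : G →* Module.End K (Lam0 B ⧸ N) :=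
    { toFun := fun g => N.mapQ N (A g) (hAN g)
      map_one' := by
        refine LinearMap.ext fun w => ?_
        obtain ⟨X, rfl⟩ := N.mkQ_surjective w
        change N.mkQ (A 1 X) = N.mkQ X
        congr 1
        refine Subtype.ext ?_
        rw [hA, map_one, Module.End.one_apply]
      map_mul' := fun g h => by
        refine LinearMap.ext fun w => ?_
        obtain ⟨X, rfl⟩ := N.mkQ_surjective w
        change N.mkQ (A (g * h) X) = N.mkQ (A g (A h X))
        congr 1
        refine Subtype.ext ?_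
        rw [hA, hA, hA, map_mul, Module.End.mul_apply] }
  refine ⟨Lam0 B ⧸ N, inferInstance, inferInstance, σ, N.mkQ, N.mkQ_surjective, fun X => ?_, fun g X Y h => ?_⟩
  · rw [Submodule.mkQ_apply, Submodule.Quotient.mk_eq_zero, hN]
  · change N.mkQ Y = N.mkQ (A g X)
    congr 1
    exact Subtype.ext (h.trans (hA g X).symm)

section

variable {W : Type} [AddCommGroup W] [Module K W] {σ : G →* Module.End K W} {π : Lam0 B →ₗ[K] W}

theorem V_fd (b : Module.Basis (Fin m ⊕ Fin m) K V) : FiniteDimensional K V := Module.Finite.of_basis b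

theorem V_dim (b : Module.Basis (Fin m ⊕ Fin m) K V) : Module.finrank K V = 2 * m := by
  rw [Module.finrank_eq_card_basis b, Fintype.card_sum, Fintype.card_fin]
  ring

theorem W_fd (_ : SpD m q F B ρ b) (hW : WD B ρ σ π) : FiniteDimensional K W := by
  have := V_fd b
  exact Module.Finite.of_surjective π hW.surj

theorem W_le (_ : SpD m q F B ρ b) (hW : WD B ρ σ π) : Module.finrank K W ≤ (2 * m) ^ 2 := by
  have := V_fd b
  refine (LinearMap.finrank_le_finrank_of_surjective hW.surj).trans ((Submodule.finrank_le _).trans ?_)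
  rw [Module.finrank_linearMap, V_dim b, pow_two]

theorem le_W (_ : SpD m q F B ρ b) (hW : WD B ρ σ π) (hd : 2 * m ^ 2 - m - 1 ≤ Module.finrank K (Lam0 B)) :
    2 * m ^ 2 - m - 2 ≤ Module.finrank K W := by
  have := V_fd b
  have h1 := LinearMap.finrank_range_add_finrank_ker π
  rw [LinearMap.range_eq_top.2 hW.surj, finrank_top] at h1
  have h2 : Module.finrank K (LinearMap.ker π) ≤ 1 := by
    have h3 : (LinearMap.ker π).map (Lam0 B).subtype ≤ Submodule.span K {(1 : Module.End K V)} := by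
      rintro _ ⟨X, hX, rfl⟩
      obtain ⟨c, hc⟩ := (hW.ker X).1 hX
      exact Submodule.mem_span_singleton.2 ⟨c, hc.symm⟩
    have h4 := Submodule.finrank_mono h3
    rw [← (Submodule.equivMapOfInjective (Lam0 B).subtype (Submodule.subtype_injective _)
      (LinearMap.ker π)).finrank_eq] at h4
    exact h4.trans ((finrank_span_le_card _).trans (by simp))
  omega

theorem W_nt (D : SpD m q F B ρ b) (hW : WD B ρ σ π) (hd : 2 * m ^ 2 - m - 1 ≤ Module.finrank K (Lam0 B)) :
    Nontrivial W := by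
  have := W_fd D hW
  have h1 := le_W D hW hd
  have h2 := D.two_le
  have h3 : m * 2 ≤ m * m := Nat.mul_le_mul_left m h2
  refine (Module.finrank_pos_iff (R := K)).1 ?_
  rw [pow_two] at h1
  omega

/-- T4: `W` is irreducible for every `M` with `Dns (ad ρ) M` -/
theorem W_irr (D : SpD m q F B ρ b) (hW : WD B ρ σ π) (hd : 2 * m ^ 2 - m - 1 ≤ Module.finrank K (Lam0 B))
    (hlam : ∀ S : Submodule K (Module.End K V), Inv (ad ρ) ⊤ S → ∀ X ∈ S, X ∈ Lam B → (¬ ∃ c : K, X = c • 1) →
      Lam0 B ≤ S) {M : Subgroup G} (hM : Dns (ad ρ) M) : Irr σ M := by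
  refine ⟨W_nt D hW hd, fun U hU => ?_⟩
  let S : Submodule K (Module.End K V) := (U.comap π).map (Lam0 B).subtype
  have hSI : Inv (ad ρ) M S := by
    rintro g hg _ ⟨X, hX, rfl⟩
    refine ⟨⟨ad ρ g X, ad_mem_lam0 D g X.2⟩, ?_, rfl⟩
    change π ⟨ad ρ g X, ad_mem_lam0 D g X.2⟩ ∈ U
    rw [hW.eqv g X _ rfl]
    exact hU g hg _ hX
  have hS := hM S hSI
  by_cases h : ∃ X : Lam0 B, π X ∈ U ∧ ¬ ∃ c : K, (X : Module.End K V) = c • 1
  · obtain ⟨X, hX, hn⟩ := h
    right
    have h1 := hlam S hS X ⟨X, hX, rfl⟩ (lam0_le D X.2) hn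
    rw [eq_top_iff]
    intro w _
    obtain ⟨Y, rfl⟩ := hW.surj w
    obtain ⟨Z, hZ, hZY⟩ := h1 Y.2
    have h2 : Z = Y := Subtype.ext hZY
    exact h2 ▸ hZ
  · left
    push Not at h
    rw [eq_bot_iff]
    intro w hw
    obtain ⟨Y, rfl⟩ := hW.surj w
    rw [Submodule.mem_bot]
    exact (hW.ker Y).2 (h Y hw)

theorem W_cen (_ : SpD m q F B ρ b) (hW : WD B ρ σ π) {z : G} {c : K} (h : ρ z = c • 1) : σ z = 1 := by
  refine LinearMap.ext fun w => ?_
  obtain ⟨X, rfl⟩ := hW.surj w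
  rw [Module.End.one_apply, ← hW.eqv z X X]
  rw [ad_apply]
  have h1 : ρ z * (X : Module.End K V) = X * ρ z := by
    rw [h, smul_mul_assoc, mul_smul_comm, one_mul, mul_one]
  rw [h1, mul_assoc, ← map_mul, mul_inv_cancel, map_one, mul_one]

theorem W_deg (D : SpD m q F B ρ b) (hW : WD B ρ σ π) {ι : Type} {x : ι → F → G} (hx : OneP F x) {e : ℕ}
    (h : PolyDeg ρ F x e) : PolyDeg σ F x (2 * e) := by
  intro i
  obtain ⟨c, hc⟩ := Cfsg.Agent.H886.BR.polyDeg_ad hx h i
  obtain ⟨s, hs⟩ := π.exists_rightInverse_of_surjective (LinearMap.range_eq_top.2 hW.surj)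
  obtain ⟨π', hπ'⟩ := LinearMap.exists_extend π
  refine ⟨fun j => π' ∘ₗ c j ∘ₗ (Lam0 B).subtype ∘ₗ s, fun t => ?_⟩
  refine LinearMap.ext fun w => ?_
  have h1 : π (s w) = w := LinearMap.congr_fun hs w
  have h2 : ∀ Y : Lam0 B, π' (Y : Module.End K V) = π Y := fun Y => LinearMap.congr_fun hπ' Y
  have h3 : σ (x i t) w = π' (ad ρ (x i t) (s w)) := by
    conv_lhs => rw [← h1]
    rw [← hW.eqv (x i t) (s w) ⟨_, ad_mem_lam0 D (x i t) (s w).2⟩ rfl, ← h2]
  rw [h3, hc, LinearMap.sum_apply, map_sum, LinearMap.sum_apply]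
  refine Finset.sum_congr rfl fun j _ => ?_
  rw [LinearMap.smul_apply, map_smul, LinearMap.smul_apply]
  rfl

/-! ### the field automorphism -/

section frob

variable {ι : Type} [Fintype ι]

/-- coordinatewise field automorphism -/
noncomputable def fr (b : Module.Basis ι K V) (τ : K ≃+* K) : V ≃+ V :=
  (b.equivFun.toAddEquiv.trans (AddEquiv.piCongrRight fun _ => τ.toAddEquiv)).trans b.equivFun.symm.toAddEquiv

theorem fr_repr (b : Module.Basis ι K V) (τ : K ≃+* K) (v : V) (i : ι) : b.repr (fr b τ v) i = τ (b.repr v i) := by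
  change b.repr (b.equivFun.symm fun i => τ (b.equivFun v i)) i = _
  rw [← Module.Basis.equivFun_apply, LinearEquiv.apply_symm_apply, Module.Basis.equivFun_apply]

theorem fr_smul (b : Module.Basis ι K V) (τ : K ≃+* K) (c : K) (v : V) : fr b τ (c • v) = τ c • fr b τ v := by
  refine b.ext_elem fun i => ?_
  rw [fr_repr, map_smul, map_smul, Finsupp.smul_apply, Finsupp.smul_apply, fr_repr, smul_eq_mul, map_mul, smul_eq_mul]

theorem fr_fix (b : Module.Basis ι K V) {τ : K ≃+* K} (hτ : ∀ c ∈ F, τ c = c) {v : V} (hv : ∀ i, b.repr v i ∈ F) :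
    fr b τ v = v := by
  refine b.ext_elem fun i => ?_
  rw [fr_repr, hτ _ (hv i)]

theorem fr_rho (b : Module.Basis ι K V) {τ : K ≃+* K} (hτ : ∀ c ∈ F, τ c = c) {f : Module.End K V}
    (hf : ∀ i j, b.repr (f (b j)) i ∈ F) (v : V) : fr b τ (f v) = f (fr b τ v) := by
  classical
  conv_lhs => rw [← b.sum_repr v]
  conv_rhs => rw [← b.sum_repr v]
  rw [map_sum, map_sum, map_sum, map_sum]
  refine Finset.sum_congr rfl fun j _ => ?_
  rw [map_smul, fr_smul, fr_smul, map_smul, fr_fix b hτ fun i => hf i j, fr_fix b hτ (v := b j)]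
  intro i
  rw [b.repr_self, Finsupp.single_apply]
  split_ifs
  · exact F.one_mem
  · exact F.zero_mem

/-- `X ↦ φ X φ⁻¹` -/
noncomputable def Fr (b : Module.Basis ι K V) (τ : K ≃+* K) : Module.End K V →+ Module.End K V where
  toFun X :=
    { toFun := fun x => fr b τ (X ((fr b τ).symm x))
      map_add' := fun x y => by rw [map_add, map_add, map_add]
      map_smul' := fun c x => by
        have h : (fr b τ).symm (c • x) = τ.symm c • (fr b τ).symm x := by
          rw [AddEquiv.symm_apply_eq, fr_smul, RingEquiv.apply_symm_apply, AddEquiv.apply_symm_apply]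
        rw [h, map_smul, fr_smul, RingEquiv.apply_symm_apply, RingHom.id_apply] }
  map_zero' := LinearMap.ext fun x => by
    change fr b τ ((0 : Module.End K V) _) = 0
    rw [LinearMap.zero_apply, map_zero]
  map_add' X Y := LinearMap.ext fun x => by
    change fr b τ ((X + Y) _) = fr b τ (X _) + fr b τ (Y _)
    rw [LinearMap.add_apply, map_add]

theorem Fr_apply (b : Module.Basis ι K V) (τ : K ≃+* K) (X : Module.End K V) (x : V) :
    Fr b τ X (fr b τ x) = fr b τ (X x) := by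
  change fr b τ (X ((fr b τ).symm (fr b τ x))) = _
  rw [AddEquiv.symm_apply_apply]

theorem Fr_ext (b : Module.Basis ι K V) (τ : K ≃+* K) {X Y : Module.End K V}
    (h : ∀ x, fr b τ (X x) = Y (fr b τ x)) : Fr b τ X = Y := by
  refine LinearMap.ext fun x => ?_
  obtain ⟨y, rfl⟩ := (fr b τ).surjective x
  rw [Fr_apply, h]

theorem Fr_smul (b : Module.Basis ι K V) (τ : K ≃+* K) (c : K) (X : Module.End K V) :
    Fr b τ (c • X) = τ c • Fr b τ X :=
  Fr_ext b τ fun x => by rw [LinearMap.smul_apply, fr_smul, LinearMap.smul_apply, Fr_apply]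

theorem Fr_scalar (b : Module.Basis ι K V) (τ : K ≃+* K) (X : Module.End K V) :
    (∃ c : K, Fr b τ X = c • 1) ↔ ∃ c : K, X = c • 1 := by
  constructor
  · rintro ⟨c, hc⟩
    refine ⟨τ.symm c, LinearMap.ext fun x => (fr b τ).injective ?_⟩
    rw [← Fr_apply, hc, LinearMap.smul_apply, LinearMap.smul_apply, fr_smul, RingEquiv.apply_symm_apply]
    rfl
  · rintro ⟨c, rfl⟩
    refine ⟨τ c, Fr_ext b τ fun x => ?_⟩
    rw [LinearMap.smul_apply, LinearMap.smul_apply, fr_smul]
    rfl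

end frob

theorem sp_fr (D : SpD m q F B ρ b) (τ : K ≃+* K) (x y : V) : B (fr b τ x) (fr b τ y) = τ (B x y) := by
  rw [sp_form D, sp_form D, map_sum]
  refine Finset.sum_congr rfl fun i _ => ?_
  rw [fr_repr, fr_repr, fr_repr, fr_repr, map_add, map_mul, map_mul]

theorem Fr_wd (D : SpD m q F B ρ b) (τ : K ≃+* K) (v w : V) :
    Fr b τ (wd B v w) = wd B (fr b τ v) (fr b τ w) :=
  Fr_ext b τ fun x => by rw [wd_apply, wd_apply, map_add, fr_smul, fr_smul, sp_fr D, sp_fr D]

theorem Fr_sq (D : SpD m q F B ρ b) (τ : K ≃+* K) (v : V) : Fr b τ (sq B v) = sq B (fr b τ v) :=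
  Fr_ext b τ fun x => by rw [sq_apply, sq_apply, fr_smul, sp_fr D]

theorem Fr_mem (D : SpD m q F B ρ b) (τ : K ≃+* K) {X : Module.End K V} (hX : X ∈ Lam0 B) :
    Fr b τ X ∈ Lam0 B := by
  refine Submodule.span_induction (p := fun X _ => Fr b τ X ∈ Lam0 B) ?_ ?_ ?_ ?_ hX
  · rintro X ⟨v, w, h, rfl⟩
    rw [Fr_wd D]
    exact wd_mem_lam0 (by rw [sp_fr D, h, map_zero])
  · rw [map_zero]
    exact (Lam0 B).zero_mem
  · intro X Y _ _ h1 h2
    rw [map_add]
    exact (Lam0 B).add_mem h1 h2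
  · intro c X _ h
    rw [Fr_smul]
    exact (Lam0 B).smul_mem _ h

theorem Fr_ad (D : SpD m q F B ρ b) {τ : K ≃+* K} (hτ : ∀ c ∈ F, τ c = c) (g : G) (X : Module.End K V) :
    Fr b τ (ad ρ g X) = ad ρ g (Fr b τ X) :=
  Fr_ext b τ fun x => by
    rw [ad_apply_apply, ad_apply_apply, fr_rho b hτ (D.rat g), ← fr_rho b hτ (D.rat g⁻¹), Fr_apply]

/-- the `q`-Frobenius -/
theorem sp_tau (D : SpD m q F B ρ b) : ∃ τ : K ≃+* K, (∀ c, τ c = c ^ Nat.card F) ∧ ∀ c ∈ F, τ c = c := by
  have := D.char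
  have := D.closed
  have := D.finF
  have := Fintype.ofFinite F
  have : CharP F 2 := (F.subtype.charP_iff F.subtype.injective 2).2 inferInstance
  obtain ⟨n, -, hn⟩ := FiniteField.card F 2
  have h : ∀ c, iterateFrobeniusEquiv K 2 n c = c ^ Nat.card F := fun c => by
    rw [iterateFrobeniusEquiv_apply, iterateFrobenius_def, Nat.card_eq_fintype_card, hn]
  exact ⟨iterateFrobeniusEquiv K 2 n, h, fun c hc => by rw [h, Cfsg.Agent.H178.BR.frob_of_mem hc]⟩

theorem W_trF (D : SpD m q F B ρ b) (hW : WD B ρ σ π) (g : G) : LinearMap.trace K W (σ g) ∈ F := by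
  have := D.finF
  have := W_fd D hW
  obtain ⟨τ, h1, h2⟩ := sp_tau D
  refine Cfsg.Agent.H178.BR.trace_mem_sub τ h1 (Lam0 B) (Fr b τ) (Fr_smul b τ) (fun X hX => Fr_mem D τ hX) π hW.surj
    (fun X => ?_) (A := ad ρ g) (fun X hX => ad_mem_lam0 D g hX) (fun X _ => Fr_ad D h2 g X) (fun X => ?_)
  · rw [hW.ker, hW.ker]
    exact Fr_scalar b τ X
  · exact (hW.eqv g X _ rfl).symm

theorem V_trF (D : SpD m q F B ρ b) (g : G) : LinearMap.trace K V (ρ g) ∈ F := by
  rw [LinearMap.trace_eq_matrix_trace K b, Matrix.trace]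
  refine F.sum_mem fun i _ => ?_
  rw [Matrix.diag_apply, LinearMap.toMatrix_apply]
  exact D.rat g i i

end

end Cfsg.Agent.H601.BR
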